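import Cfsg.Agent.G2Three.Data
import Cfsg.Agent.Chev.FieldMap
import Cfsg.Agent.S1059

/-! The element orders of `G₂(3)` that are products of two primes. -/

set_option autoImplicit false
set_option maxHeartbeats 400000

namespace CfsgLib.G2Three

open Cfsg.Lie Matrix CfsgLib.Chev

/-- The group over the prime field. -/
abbrev G3 : Subgroup (GL chevG2.Idx (ZMod 3)) := chevG2.group (ZMod 3)

/-- The invariant product. -/
def prod7 (u v : Fin 7 → ZMod 3) : Fin 7 → ZMod 3 := fun k => u ⬝ᵥ (tensor k *ᵥ v)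

set_option maxHeartbeats 2000000 in
theorem bfast_eq (u v : Fin 7 → ZMod 3) : bfast u v = prod7 u v := by
  funext k
  fin_cases k <;>
    simp [bfast, prod7, tensor, dotProduct, Matrix.mulVec, Fin.sum_univ_seven] <;> ring

/-- Preserving the product. -/
def Pres (M : Matrix (Fin 7) (Fin 7) (ZMod 3)) : Prop :=
  ∀ u v, M *ᵥ prod7 u v = prod7 (M *ᵥ u) (M *ᵥ v)

theorem pres_of_mat {M : Matrix (Fin 7) (Fin 7) (ZMod 3)}
    (h : ∀ k, Mᵀ * tensor k * M = ∑ l, M k l • tensor l) : Pres M := by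
  intro u v
  funext k
  show (fun l => M k l) ⬝ᵥ (prod7 u v) = (M *ᵥ u) ⬝ᵥ (tensor k *ᵥ (M *ᵥ v))
  have e : (M *ᵥ u) ⬝ᵥ (tensor k *ᵥ (M *ᵥ v)) = u ⬝ᵥ ((Mᵀ * tensor k * M) *ᵥ v) := by
    rw [← Matrix.mulVec_mulVec, ← Matrix.mulVec_mulVec, dotProduct_mulVec u, vecMul_transpose]
  rw [e, h, Matrix.sum_mulVec, dotProduct_sum]
  simp only [dotProduct, prod7, Matrix.smul_mulVec, Pi.smul_apply, smul_eq_mul, Finset.mul_sum]
  exact Finset.sum_congr rfl fun l _ => Finset.sum_congr rfl fun i _ => by ring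

theorem pres_one : Pres 1 := fun u v => by simp

theorem Pres.mul {M N : Matrix (Fin 7) (Fin 7) (ZMod 3)} (hM : Pres M) (hN : Pres N) : Pres (M * N) :=
  fun u v => by rw [← mulVec_mulVec, hN, hM, mulVec_mulVec, mulVec_mulVec]

theorem inI_idx : ∀ i : Fin 7, Special.InI Special.specG2 chevG2 (idx i) := by decide +kernel

theorem idx_surj : ∀ c : chevG2.Idx, Special.InI Special.specG2 chevG2 c → ∃ i, idx i = c := by
  decide +kernel

theorem idx_injective : Function.Injective idx := by decide +kernel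

/-- The identification of the index sets. -/
noncomputable def idxEquiv : Fin 7 ≃ {c : chevG2.Idx // Special.InI Special.specG2 chevG2 c} :=
  Equiv.ofBijective (fun i => ⟨idx i, inI_idx i⟩)
    ⟨fun _ _ h => idx_injective (congrArg Subtype.val h),
      fun c => (idx_surj c.1 c.2).imp fun _ h => Subtype.ext h⟩

theorem r7_eq (M : Matrix chevG2.Idx chevG2.Idx (ZMod 3)) :
    r7 M = (Special.subAct Special.specG2 M).submatrix idxEquiv idxEquiv := rfl

theorem r7_mul (g h : G3) :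
    r7 ((g * h : G3) : GL chevG2.Idx (ZMod 3)) =
      r7 (g : GL chevG2.Idx (ZMod 3)) * r7 (h : GL chevG2.Idx (ZMod 3)) := by
  rw [r7_eq, r7_eq, r7_eq, Matrix.submatrix_mul_equiv, Subgroup.coe_mul,
    Special.subAct_mul' DataG2.valid Special.specG2_valid (inferInstanceAs (CharP (ZMod 3) 3)) h.2]

theorem r7_one : r7 ((1 : G3) : GL chevG2.Idx (ZMod 3)) = 1 := by
  rw [Subgroup.coe_one, Units.val_one, r7, Matrix.submatrix_one _ idx_injective]

/-- The representation. -/
noncomputable def rho : G3 →* Matrix (Fin 7) (Fin 7) (ZMod 3) where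
  toFun g := r7 (g : GL chevG2.Idx (ZMod 3))
  map_one' := r7_one
  map_mul' := r7_mul

theorem rho_injective : Function.Injective rho := by
  intro g h e
  apply Subtype.ext
  apply Special.subAct_injOn DataG2.valid Special.specG2_valid (inferInstanceAs (CharP (ZMod 3) 3)) g.2 h.2
  have e' : r7 (g : GL chevG2.Idx (ZMod 3)) = r7 (h : GL chevG2.Idx (ZMod 3)) := e
  rw [r7_eq, r7_eq] at e'
  ext a b
  have := congrFun (congrFun e' (idxEquiv.symm a)) (idxEquiv.symm b)
  simpa using this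

theorem rho_apply (g : G3) : rho g = r7 (g : GL chevG2.Idx (ZMod 3)) := rfl

theorem pres_gen (x : G3) (r : Fin chevG2.nroots) (t : ZMod 3)
    (hx : ((x : GL chevG2.Idx (ZMod 3)) : Matrix chevG2.Idx chevG2.Idx (ZMod 3)) = chevG2.xMat (ZMod 3) r t) :
    Pres (rho x) := by
  have e : rho x = r7 (chevG2.xMat (ZMod 3) r t) := (rho_apply x).trans (congrArg r7 hx)
  rw [e]
  exact pres_of_mat (gen_invariant r t)

/-- The elements preserving the product. -/
noncomputable def presMonoid : Submonoid G3 where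
  carrier := {g | Pres (rho g)}
  one_mem' := by
    show Pres (rho 1)
    rw [map_one]; exact pres_one
  mul_mem' := by
    intro x y hx hy
    show Pres (rho (x * y))
    rw [map_mul]; exact Pres.mul hx hy

theorem pres_rho (g : G3) : Pres (rho g) := by
  have htop : Submonoid.closure ((Subtype.val : G3 → GL chevG2.Idx (ZMod 3)) ⁻¹' {g | ∃ (r : Fin chevG2.nroots) (t : ZMod 3),
      (g : Matrix _ _ (ZMod 3)) = chevG2.xMat (ZMod 3) r t}) = ⊤ := by
    rw [← Subgroup.closure_toSubmonoid_of_finite]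
    exact (congrArg Subgroup.toSubmonoid Subgroup.closure_closure_coe_preimage).trans Subgroup.top_toSubmonoid
  have hle : (⊤ : Submonoid G3) ≤ presMonoid := by
    rw [← htop, Submonoid.closure_le]
    intro x hx
    obtain ⟨r, t, hrt⟩ := hx
    exact pres_gen x r t hrt
  exact hle (Submonoid.mem_top g)

theorem exists_word (w : List (Fin 12 × ZMod 3)) :
    ∃ x : G3, rho x = (w.map fun p => r7 (chevG2.xMat (ZMod 3) p.1 p.2)).prod := by
  induction w with
  | nil => exact ⟨1, map_one rho⟩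
  | cons p w ih =>
    obtain ⟨x, hx⟩ := ih
    let S := Special.sv.{0} DataG2.valid
    have hc : ((S.xU (p.1 : ℕ) p.2 : GL chevG2.Idx (ZMod 3)) : Matrix _ _ (ZMod 3)) =
        chevG2.xMat (ZMod 3) p.1 p.2 := by
      rw [Sys.coe_xU]
      exact dif_pos p.1.2
    let g : G3 := ⟨S.xU (p.1 : ℕ) p.2, Subgroup.subset_closure ⟨p.1, p.2, hc⟩⟩
    refine ⟨g * x, ?_⟩
    rw [map_mul, hx, List.map_cons, List.prod_cons]
    exact congrArg (fun M => r7 M * _) hc

/-- The abstract centraliser argument. -/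
theorem centralizer_le {o : ℕ} (x : G3) (m qa qb K Ki : Matrix (Fin 7) (Fin 7) (ZMod 3))
    (ca cb : Fin 7 → ZMod 3) (orb : List (List (ZMod 3))) (hx : rho x = m)
    (hpoly : qa = ∑ k, ca k • m ^ (k : ℕ) ∧ qb = ∑ k, cb k • m ^ (k : ℕ))
    (hvec : bfast cyc (m *ᵥ cyc) = qa *ᵥ cyc ∧ bfast cyc ((m * m) *ᵥ cyc) = qb *ᵥ cyc)
    (hK : K * Ki = 1 ∧ ∀ j : Fin 7, (fun i => K i j) = m ^ (j : ℕ) *ᵥ cyc)
    (horb : orb = (List.range o).map fun k => List.ofFn (m ^ k *ᵥ cyc))
    (hs : ∀ a b c d e f g : ZMod 3,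
      qa *ᵥ ![a, b, c, d, e, f, g] = bfast ![a, b, c, d, e, f, g] (m *ᵥ ![a, b, c, d, e, f, g]) →
      qb *ᵥ ![a, b, c, d, e, f, g] =
        bfast ![a, b, c, d, e, f, g] ((m * m) *ᵥ ![a, b, c, d, e, f, g]) →
      [a, b, c, d, e, f, g] ∈ orb ∨ [a, b, c, d, e, f, g] = [0, 0, 0, 0, 0, 0, 0])
    {y : G3} (hy : y * x = x * y) : y ∈ Subgroup.zpowers x := by
  set Y := rho y with hY
  have hc : Commute Y m := by rw [Commute, SemiconjBy, hY, ← hx, ← map_mul, ← map_mul, hy]
  have hcp : ∀ c : Fin 7 → ZMod 3, Commute Y (∑ k, c k • m ^ (k : ℕ)) := fun c =>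
    Commute.sum_right _ _ _ fun k _ => (hc.pow_right _).smul_right _
  set w := Y *ᵥ cyc with hw
  have e1 : qa *ᵥ w = bfast w (m *ᵥ w) := by
    rw [bfast_eq, hw, mulVec_mulVec, hpoly.1, ← (hcp ca).eq, ← hpoly.1, ← mulVec_mulVec, ← hvec.1,
      bfast_eq, hY, pres_rho y, mulVec_mulVec, mulVec_mulVec, ← hY, hc.eq]
  have e2 : qb *ᵥ w = bfast w ((m * m) *ᵥ w) := by
    rw [bfast_eq, hw, mulVec_mulVec, hpoly.2, ← (hcp cb).eq, ← hpoly.2, ← mulVec_mulVec, ← hvec.2,
      bfast_eq, hY, pres_rho y, mulVec_mulVec, mulVec_mulVec, ← hY, (hc.mul_right hc).eq]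
  have hw7 : w = ![w 0, w 1, w 2, w 3, w 4, w 5, w 6] := by funext i; fin_cases i <;> rfl
  rw [hw7] at e1 e2
  have hof : List.ofFn w = [w 0, w 1, w 2, w 3, w 4, w 5, w 6] := by simp [List.ofFn_succ]
  rcases hs _ _ _ _ _ _ _ e1 e2 with hin | h0
  · rw [horb, List.mem_map] at hin
    obtain ⟨k, -, hk⟩ := hin
    rw [← hof] at hk
    have hk' : m ^ k *ᵥ cyc = w := List.ofFn_injective hk
    have key : Y * K = m ^ k * K := by
      ext i j
      have h1 := congrFun (show Y *ᵥ (m ^ (j : ℕ) *ᵥ cyc) = m ^ k *ᵥ (m ^ (j : ℕ) *ᵥ cyc) by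
        rw [mulVec_mulVec, (hc.pow_right _).eq, ← mulVec_mulVec, ← hw, ← hk', mulVec_mulVec,
          mulVec_mulVec, ← pow_add, ← pow_add, add_comm]) i
      rw [← hK.2 j] at h1
      exact h1
    have heq : Y = m ^ k := by
      have := congrArg (· * Ki) key
      simpa [mul_assoc, hK.1] using this
    rw [hY, ← hx, ← map_pow] at heq
    rw [rho_injective heq]
    exact pow_mem (Subgroup.mem_zpowers x) k
  · exfalso
    have hz : w = 0 := by
      rw [← hof] at h0
      exact List.ofFn_injective (h0.trans (by simp [List.ofFn_succ]))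
    have h1 : rho y⁻¹ *ᵥ w = cyc := by
      rw [hw, hY, mulVec_mulVec, ← map_mul, inv_mul_cancel, map_one, one_mulVec]
    rw [hz, mulVec_zero] at h1
    exact absurd h1 (by decide +kernel)

theorem exists_seven : ∃ x : G3, orderOf x = 7 ∧ ∀ y, y * x = x * y → y ∈ Subgroup.zpowers x := by
  obtain ⟨x, hx⟩ := exists_word w7
  rw [word7] at hx
  haveI : Fact (Nat.Prime 7) := ⟨by norm_num⟩
  refine ⟨x, orderOf_eq_prime (rho_injective (by rw [map_pow, hx, facts7.1, map_one])) ?_, fun y hy =>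
    centralizer_le x _ _ _ _ _ _ _ _ hx poly7 vec7 krylov_spec7 orbit_spec7 search7 hy⟩
  intro e
  exact facts7.2 (by rw [← hx, e, map_one])

theorem exists_thirteen : ∃ x : G3, orderOf x = 13 ∧ ∀ y, y * x = x * y → y ∈ Subgroup.zpowers x := by
  obtain ⟨x, hx⟩ := exists_word w13
  rw [word13] at hx
  haveI : Fact (Nat.Prime 13) := ⟨by norm_num⟩
  refine ⟨x, orderOf_eq_prime (rho_injective (by rw [map_pow, hx, facts13.1, map_one])) ?_, fun y hy =>
    centralizer_le x _ _ _ _ _ _ _ _ hx poly13 vec13 krylov_spec13 orbit_spec13 search13 hy⟩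
  intro e
  exact facts13.2 (by rw [← hx, e, map_one])

theorem exists_six : ∃ x : G3, orderOf x = 6 := by
  obtain ⟨x, hx⟩ := exists_word w6
  rw [word6] at hx
  refine ⟨x, ?_⟩
  have h6 : x ^ 6 = 1 := rho_injective (by rw [map_pow, hx, facts6.1, map_one])
  have hne : ∀ n, n ∈ [2, 3] → x ^ n ≠ 1 := by
    intro n hn e
    have := congrArg rho e
    rw [map_pow, hx, map_one] at this
    fin_cases hn
    · exact facts6.2.1 this
    · exact facts6.2.2 this
  have hd := orderOf_dvd_of_pow_eq_one h6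
  have hle := Nat.le_of_dvd (by norm_num) hd
  have hp := pow_orderOf_eq_one x
  by_contra hne6
  have hcases : orderOf x = 1 ∨ orderOf x = 2 ∨ orderOf x = 3 := by
    interval_cases h : orderOf x <;> simp_all
  rcases hcases with h | h | h
  · rw [h, pow_one] at hp
    exact hne 2 (by simp) (by rw [hp, one_pow])
  · rw [h] at hp; exact hne 2 (by simp) hp
  · rw [h] at hp; exact hne 3 (by simp) hp

end CfsgLib.G2Three
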