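import Mathlib

/-! A self-centralising cyclic Sylow subgroup of prime order isolates its prime. -/

set_option autoImplicit false

namespace CfsgLib.G2Three

theorem orderOf_eq_of_selfCentralizing {G : Type*} [Group G] [Finite G] {q : ℕ} [Fact q.Prime]
    (hq : (Nat.card G).factorization q = 1) {x : G} (hx : orderOf x = q)
    (hc : ∀ y, y * x = x * y → y ∈ Subgroup.zpowers x) {y : G} (hy : q ∣ orderOf y) :
    orderOf y = q := by
  have hqp : q.Prime := Fact.out
  obtain ⟨e, he⟩ := hy
  have hn := orderOf_pos y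
  set a := y ^ e with ha
  have hoa : orderOf a = q := by
    have he0 : e ≠ 0 := by rintro rfl; rw [mul_zero] at he; omega
    rw [ha, orderOf_pow' _ he0, he, Nat.gcd_mul_left_left, Nat.mul_div_cancel _ (Nat.pos_of_ne_zero he0)]
  let P : Sylow q G := Sylow.ofCard (Subgroup.zpowers a) (by rw [Nat.card_zpowers, hoa, hq, pow_one])
  let Q : Sylow q G := Sylow.ofCard (Subgroup.zpowers x) (by rw [Nat.card_zpowers, hx, hq, pow_one])
  obtain ⟨g, hg⟩ := MulAction.exists_smul_eq G P Q
  have hg' : (Subgroup.zpowers a).map (MulAut.conj g).toMonoidHom = Subgroup.zpowers x :=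
    congrArg (fun S : Sylow q G => (S : Subgroup G)) hg
  rw [MonoidHom.map_zpowers] at hg'
  obtain ⟨k, hk⟩ := Subgroup.mem_zpowers_iff.1 (hg' ▸ Subgroup.mem_zpowers x)
  have hcomm : Commute (MulAut.conj g y) x := by
    rw [← hk]
    exact (((Commute.refl y).pow_right e).map (MulAut.conj g).toMonoidHom).zpow_right k
  obtain ⟨j, hj⟩ := Subgroup.mem_zpowers_iff.1 (hc _ hcomm)
  have hdvd : orderOf y ∣ q := by
    rw [← hx, ← (MulAut.conj g).orderOf_eq y, ← hj]
    exact orderOf_dvd_of_mem_zpowers (Subgroup.zpow_mem_zpowers x j)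
  exact Nat.dvd_antisymm hdvd ⟨e, he⟩

end CfsgLib.G2Three
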